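import Mathlib
import Cfsg.Agent.H38.RealOdd.Tools
import Cfsg.Agent.H56.CliffordInertia
import Cfsg.Agent.H27.Clifford
import Cfsg.Agent.H19.Cores
import Cfsg.Agent.H20.Basic

/-! Odd multiplicity relation between characters and linear characters of a Sylow 2-subgroup:
conjugation, quotients, inertia groups. -/

set_option autoImplicit false

namespace Cfsg.Agent.H38.RealOdd

open scoped ComplexConjugate
open Subgroup

variable {G : Type*} [Group G] [Finite G]

/-- `f` occurs with odd multiplicity in `χ_P`. -/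
def OddAt (P : Subgroup G) (χ : G → ℂ) (f : P →* ℂˣ) : Prop :=
  ∃ m : ℕ, Odd m ∧ mult P χ (linFun f) = m

theorem OddAt.ne_zero {P : Subgroup G} {χ : G → ℂ} {f : P →* ℂˣ} (h : OddAt P χ f) :
    mult P χ (linFun f) ≠ 0 := by
  obtain ⟨m, hm, e⟩ := h
  rw [e, Nat.cast_ne_zero]
  rintro rfl
  simp at hm

/-- `f'` is a conjugate of `f` under the normaliser of `P`. -/
def Rel (P : Subgroup G) (f f' : P →* ℂˣ) : Prop :=
  ∃ n ∈ normalizer (P : Set G), ∀ x y : P, (y : G) = n * x * n⁻¹ → f' x = f y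

/-- Conjugation by a normalising element. -/
def conjAut {P : Subgroup G} {n : G} (hn : n ∈ normalizer (P : Set G)) : P ≃* P where
  toFun x := ⟨n * x * n⁻¹, (mem_normalizer_iff.mp hn x).mp x.2⟩
  invFun x := ⟨n⁻¹ * x * n, (mem_normalizer_iff.mp hn _).mpr (by simp [mul_assoc])⟩
  left_inv x := Subtype.ext (by simp [mul_assoc])
  right_inv x := Subtype.ext (by simp [mul_assoc])
  map_mul' x y := Subtype.ext (by simp [mul_assoc])

omit [Finite G] in
theorem rel_iff {P : Subgroup G} {f f' : P →* ℂˣ} :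
    Rel P f f' ↔ ∃ (n : G) (hn : n ∈ normalizer (P : Set G)),
      f' = f.comp (conjAut hn).toMonoidHom := by
  constructor
  · rintro ⟨n, hn, h⟩
    exact ⟨n, hn, MonoidHom.ext fun x => h x (conjAut hn x) rfl⟩
  · rintro ⟨n, hn, rfl⟩
    exact ⟨n, hn, fun x y hxy => congrArg f (Subtype.ext hxy.symm : conjAut hn x = y)⟩

omit [Finite G] in
theorem Rel.refl {P : Subgroup G} (f : P →* ℂˣ) : Rel P f f :=
  ⟨1, one_mem _, fun x y h => congrArg f (Subtype.ext (by simp at h; rw [h]))⟩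

omit [Finite G] in
theorem Rel.symm {P : Subgroup G} {f f' : P →* ℂˣ} (h : Rel P f f') : Rel P f' f := by
  obtain ⟨n, hn, h⟩ := h
  exact ⟨n⁻¹, inv_mem hn, fun x y hxy => (h y x (by rw [hxy]; group)).symm⟩

omit [Finite G] in
theorem Rel.trans {P : Subgroup G} {f f' f'' : P →* ℂˣ} (h : Rel P f f') (h' : Rel P f' f'') :
    Rel P f f'' := by
  obtain ⟨n, hn, h⟩ := h
  obtain ⟨m, hm, h'⟩ := h'
  refine ⟨n * m, mul_mem hn hm, fun x y hxy => ?_⟩
  have hmx : m * x * m⁻¹ ∈ P := (mem_normalizer_iff.mp hm x).mp x.2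
  rw [h' x ⟨_, hmx⟩ rfl]
  exact h _ y (by rw [hxy]; simp [mul_assoc])

theorem Rel.isRealHom {P : Subgroup G} {f f' : P →* ℂˣ} (h : Rel P f f') (hf : IsRealHom f) :
    IsRealHom f' := by
  obtain ⟨n, hn, rfl⟩ := rel_iff.mp h
  exact fun x => hf _

theorem OddAt.of_rel {P : Subgroup G} {χ : G → ℂ} (hχ : Cfsg.IsClassFunction G χ)
    {f f' : P →* ℂˣ} (h : OddAt P χ f) (hr : Rel P f f') : OddAt P χ f' := by
  obtain ⟨n, hn, rfl⟩ := rel_iff.mp hr
  obtain ⟨m, hm, e⟩ := h
  refine ⟨m, hm, ?_⟩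
  rw [← e]
  haveI := Fintype.ofFinite P
  rw [mult_eq, mult_eq]
  simp only [Cfsg.classInner]
  congr 1
  refine Fintype.sum_equiv (conjAut hn).toEquiv _ _ fun x => ?_
  congr 1
  show χ x = χ (n * x * n⁻¹)
  exact (hχ _ _).symm

/-! ### Quotients -/

/-- The image of `P` receives the homomorphism. -/
theorem exists_descend {P : Subgroup G} (U : Subgroup G) [U.Normal] (f : P →* ℂˣ)
    (hf : ∀ x : P, (x : G) ∈ U → f x = 1) :
    ∃ g : P.map (QuotientGroup.mk' U) →* ℂˣ,
      ∀ x : P, g ((QuotientGroup.mk' U).subgroupMap P x) = f x := by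
  set π := (QuotientGroup.mk' U).subgroupMap P with hπ
  have hsurj : Function.Surjective π := MonoidHom.subgroupMap_surjective _ _
  have hker : π.ker ≤ f.ker := fun x hx =>
    hf x ((QuotientGroup.eq_one_iff (x : G)).mp (congrArg Subtype.val hx))
  exact ⟨π.liftOfSurjective hsurj ⟨f, hker⟩, fun x => MonoidHom.liftOfRightInverse_comp_apply _ _ _ _ x⟩

theorem mult_inflate {P : Subgroup G} (U : Subgroup G) [U.Normal] (ψ : Cfsg.IrrCharacter (G ⧸ U))
    (f : P →* ℂˣ) (g : P.map (QuotientGroup.mk' U) →* ℂˣ)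
    (hg : ∀ x : P, g ((QuotientGroup.mk' U).subgroupMap P x) = f x) :
    mult P (H44.inflate U ψ).1 (linFun f) =
      mult (P.map (QuotientGroup.mk' U)) ψ.1 (linFun g) := by
  haveI := Fintype.ofFinite P
  haveI := Fintype.ofFinite (P.map (QuotientGroup.mk' U))
  rw [mult_eq, mult_eq, ← classInner_comp_surjective _
    (MonoidHom.subgroupMap_surjective (QuotientGroup.mk' U) P)]
  congr 1
  funext x
  show (f x : ℂ) = (g _ : ℂ)
  rw [hg]

theorem mem_normalizer_of_conj_map_le {P : Subgroup G} {n : G} (h : ∀ y ∈ P, n * y * n⁻¹ ∈ P) :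
    n ∈ normalizer (P : Set G) := by
  have hle : P.map (MulAut.conj n).toMonoidHom ≤ P := by rintro _ ⟨y, hy, rfl⟩; exact h y hy
  refine H20.mem_normalizer_of_conj_smul_eq ?_
  exact eq_of_le_of_card_ge hle (le_of_eq (card_map_of_injective (MulAut.conj n).injective).symm)

/-- Normalisers of Sylow subgroups lift from quotients. -/
theorem exists_normalizer_lift {p : ℕ} [Fact p.Prime] {P : Subgroup G} (hP : IsPGroup p P)
    (hidx : ¬ p ∣ P.index) (U : Subgroup G) [U.Normal] {m : G ⧸ U}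
    (hm : m ∈ normalizer (P.map (QuotientGroup.mk' U) : Set (G ⧸ U))) :
    ∃ n ∈ normalizer (P : Set G), QuotientGroup.mk' U n = m := by
  set π := QuotientGroup.mk' U with hπ
  obtain ⟨n0, rfl⟩ := QuotientGroup.mk'_surjective U m
  set K := P ⊔ U with hK
  have hcomap : (P.map π).comap π = K := by rw [hK, comap_map_eq, QuotientGroup.ker_mk']
  have hn0K : ∀ x ∈ P, n0 * x * n0⁻¹ ∈ K := by
    intro x hx
    rw [← hcomap, mem_comap, map_mul, map_mul, map_inv]
    exact (mem_normalizer_iff.mp hm _).mp ⟨x, hx, rfl⟩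
  set Q := P.map (MulAut.conj n0).toMonoidHom with hQ
  have hQK : Q ≤ K := by rintro _ ⟨x, hx, rfl⟩; exact hn0K x hx
  let S : Sylow p G := hP.toSylow hidx
  have hQc : Nat.card Q = Nat.card P := card_map_of_injective (MulAut.conj n0).injective
  let SP : Sylow p K := S.subtype le_sup_left
  let SQ : Sylow p K := (hP.map (MulAut.conj n0).toMonoidHom).toSylow (fun h => hidx (by
    have e1 : Q.index = P.index := by
      have := Q.card_mul_index
      rw [← P.card_mul_index, hQc] at this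
      exact Nat.eq_of_mul_eq_mul_left Nat.card_pos this
    exact e1 ▸ h)) |>.subtype hQK
  obtain ⟨k, hk⟩ := MulAction.exists_smul_eq K SQ SP
  obtain ⟨x, hx, u, hu, hxu⟩ := mem_sup_of_normal_right.mp k.2
  have hmap : ∀ y ∈ P, (k : G) * (n0 * y * n0⁻¹) * (k : G)⁻¹ ∈ P := by
    intro y hy
    have hyK : n0 * y * n0⁻¹ ∈ K := hn0K y hy
    have h1 : (⟨_, hyK⟩ : K) ∈ (SQ : Subgroup K) := ⟨y, hy, rfl⟩
    have h2 : k * (⟨_, hyK⟩ : K) * k⁻¹ ∈ ((k • SQ : Sylow p K) : Subgroup K) := by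
      rw [Sylow.coe_subgroup_smul]
      exact ⟨_, h1, rfl⟩
    rw [hk] at h2
    exact h2
  refine ⟨u * n0, mem_normalizer_of_conj_map_le (fun y hy => ?_), ?_⟩
  · have h1 := hmap y hy
    rw [← hxu] at h1
    have h2 : x⁻¹ * (x * u * (n0 * y * n0⁻¹) * (x * u)⁻¹) * x ∈ P :=
      mul_mem (mul_mem (inv_mem hx) h1) hx
    have e : x⁻¹ * (x * u * (n0 * y * n0⁻¹) * (x * u)⁻¹) * x = u * n0 * y * (u * n0)⁻¹ := by group
    rwa [e] at h2
  · rw [map_mul, show π u = 1 from (QuotientGroup.eq_one_iff u).mpr hu, one_mul]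

theorem index_map_not_dvd {p : ℕ} {P : Subgroup G} (hidx : ¬ p ∣ P.index) (U : Subgroup G)
    [U.Normal] : ¬ p ∣ (P.map (QuotientGroup.mk' U)).index := fun h =>
  hidx (h.trans (P.index_map_dvd (QuotientGroup.mk'_surjective U)))

theorem Rel.of_map {P : Subgroup G} (hP : IsPGroup 2 P) (hidx : ¬ 2 ∣ P.index) (U : Subgroup G)
    [U.Normal] {f f' : P →* ℂˣ} {g g' : P.map (QuotientGroup.mk' U) →* ℂˣ}
    (hg : ∀ x : P, g ((QuotientGroup.mk' U).subgroupMap P x) = f x)
    (hg' : ∀ x : P, g' ((QuotientGroup.mk' U).subgroupMap P x) = f' x)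
    (h : Rel _ g g') : Rel P f f' := by
  obtain ⟨m, hm, h⟩ := h
  obtain ⟨n, hn, rfl⟩ := exists_normalizer_lift hP hidx U hm
  refine ⟨n, hn, fun x y hxy => ?_⟩
  rw [← hg, ← hg']
  refine h _ _ ?_
  show QuotientGroup.mk' U (y : G) = _
  rw [hxy, map_mul, map_mul, map_inv]
  rfl

theorem normalizer_map_eq {P : Subgroup G} (hP : IsPGroup 2 P) (hidx : ¬ 2 ∣ P.index)
    (hN : normalizer (P : Set G) = P) (U : Subgroup G) [U.Normal] :
    normalizer (P.map (QuotientGroup.mk' U) : Set (G ⧸ U)) = P.map (QuotientGroup.mk' U) := by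
  refine le_antisymm (fun m hm => ?_) Subgroup.le_normalizer
  obtain ⟨n, hn, rfl⟩ := exists_normalizer_lift hP hidx U hm
  rw [hN] at hn
  exact mem_map_of_mem _ hn

/-! ### Restriction to a normal subgroup inside `P` -/

theorem restrict_ne_zero {A B : Subgroup G} (hBA : B ≤ A) {χ : G → ℂ} (hχ : Cfsg.IsCharacter G χ)
    (θ : Cfsg.IrrCharacter A) (h : mult A χ θ.1 ≠ 0) (φ : Cfsg.IrrCharacter B)
    (h2 : mult (B.subgroupOf A) θ.1 (fun x => φ.1 (subgroupOfEquivOfLe hBA x)) ≠ 0) :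
    mult B χ φ.1 ≠ 0 := by
  haveI := Fintype.ofFinite A
  haveI := Fintype.ofFinite B
  haveI := Fintype.ofFinite (B.subgroupOf A)
  rw [mult_eq] at h h2 ⊢
  refine classInner_restrict_ne_zero (inclusion hBA) (H26.isCharacter_comp hχ A.subtype) θ φ h ?_
  intro h0
  apply h2
  rw [← h0]
  simp only [Cfsg.classInner]
  rw [Nat.card_congr (subgroupOfEquivOfLe hBA).toEquiv]
  congr 1
  exact Fintype.sum_equiv (subgroupOfEquivOfLe hBA).toEquiv _ _ fun x => rfl

/-- If `f` occurs in `χ_P` then `f|_F` occurs in `χ_F`. -/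
theorem mult_restrict_lin_ne_zero {P F : Subgroup G} (hFP : F ≤ P) {χ : G → ℂ}
    (hχ : Cfsg.IsCharacter G χ) {f : P →* ℂˣ} (h : mult P χ (linFun f) ≠ 0) :
    mult F χ (linFun (f.comp (inclusion hFP))) ≠ 0 := by
  refine restrict_ne_zero hFP hχ (linIrr f) h (linIrr (f.comp (inclusion hFP))) ?_
  haveI := Fintype.ofFinite (F.subgroupOf P)
  rw [mult_eq]
  have e : (fun x : F.subgroupOf P => (linIrr f).1 x) =
      (linIrr (f.comp (F.subgroupOf P).subtype)).1 := rfl
  have e' : (fun x : F.subgroupOf P => (linIrr (f.comp (inclusion hFP))).1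
      (subgroupOfEquivOfLe hFP x)) = (linIrr (f.comp (F.subgroupOf P).subtype)).1 := by
    funext x; rfl
  classical
  rw [e, e', H26.classInner_irr, if_pos rfl]
  exact one_ne_zero

/-- A real character of odd degree has every normal subgroup of odd order in its kernel. -/
theorem le_kerOf_of_odd (χ : Cfsg.IrrCharacter G) (hreal : ∀ g, (χ.1 g).im = 0)
    (hodd : Odd (Cfsg.charDegree (χ : G → ℂ))) (U : Subgroup G) [hU : U.Normal]
    (hUo : Odd (Nat.card U)) : U ≤ H44.kerOf χ := by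
  haveI := Fintype.ofFinite G
  haveI := Fintype.ofFinite U
  obtain ⟨ψ, hψr, -, m, hm, hψ⟩ := (exists_odd_constituent (θ := fun x : U => χ.1 x)
    (H26.isCharacter_comp (H26.isCharacter_of_irr χ.2) U.subtype) hodd
    (H44.cast_charDegree χ).symm).2 fun x => hreal x
  rw [H26.real_irr_eq_one_of_odd hUo ψ hψr] at hψ
  have hne : Cfsg.classInner (fun x : U => χ.1 x) (fun _ => (1 : ℂ)) ≠ 0 := by
    show Cfsg.classInner (fun x : U => χ.1 x) (H26.oneIrr U).1 ≠ 0
    rw [hψ, Nat.cast_ne_zero]; rintro rfl; simp at hm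
  obtain ⟨e, -, he, -, he1⟩ := H56.restrict_eq_smul_of_invariant U (H26.oneIrr U).2
    (fun g => rfl) χ.2 hne
  intro u hu
  rw [H44.mem_kerOf, he1]
  have := congrFun he ⟨u, hu⟩
  simpa [H26.oneIrr] using this

end Cfsg.Agent.H38.RealOdd
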