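import Mathlib
import Cfsg.Agent.H38.RealOdd.Steps

/-! The inertia group of the restriction of a linear character of `P` to a normal subgroup. -/

set_option autoImplicit false

namespace Cfsg.Agent.H38.RealOdd

open scoped ComplexConjugate
open Subgroup

variable {G : Type*} [Group G] [Finite G]

/-- The inertia group of `θ`. -/
def stab (F : Subgroup G) [F.Normal] (θ : F → ℂ) : Subgroup G where
  carrier := {g | H56.twist F θ g = θ}
  one_mem' := H56.twist_one F θ
  mul_mem' {a} {b} (ha : H56.twist F θ a = θ) (hb : H56.twist F θ b = θ) := by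
    show H56.twist F θ (a * b) = θ
    rw [← H56.twist_twist, ha, hb]
  inv_mem' {a} (ha : H56.twist F θ a = θ) := by
    show H56.twist F θ a⁻¹ = θ
    conv_lhs => rw [← ha]
    rw [H56.twist_twist, mul_inv_cancel, H56.twist_one]

omit [Finite G] in
theorem le_stab {P F : Subgroup G} [F.Normal] (hFP : F ≤ P) (f : P →* ℂˣ) :
    P ≤ stab F (linFun (f.comp (inclusion hFP))) := by
  intro g hg
  funext h
  show ((f _ : ℂˣ) : ℂ) = (f _ : ℂˣ)
  have e : (inclusion hFP ⟨g * h * g⁻¹, ‹F.Normal›.conj_mem h h.2 g⟩ : P) =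
      ⟨g, hg⟩ * inclusion hFP h * ⟨g, hg⟩⁻¹ := Subtype.ext rfl
  rw [e, map_mul, map_mul, map_inv, mul_comm, inv_mul_cancel_left]

/-- A homomorphism on `P` read on `P` as a subgroup of `T`. -/
noncomputable def toSub {P T : Subgroup G} (hPT : P ≤ T) (f : P →* ℂˣ) : P.subgroupOf T →* ℂˣ :=
  f.comp (subgroupOfEquivOfLe hPT).toMonoidHom

theorem mult_toSub {P T : Subgroup G} (hPT : P ≤ T) (χ : G → ℂ) (f : P →* ℂˣ) :
    mult (P.subgroupOf T) (fun t : T => χ t) (linFun (toSub hPT f)) = mult P χ (linFun f) := by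
  haveI := Fintype.ofFinite P
  haveI := Fintype.ofFinite (P.subgroupOf T)
  rw [mult_eq, mult_eq]
  simp only [Cfsg.classInner]
  rw [Nat.card_congr (subgroupOfEquivOfLe hPT).toEquiv]
  congr 1
  exact Fintype.sum_equiv (subgroupOfEquivOfLe hPT).toEquiv _ _ fun x => rfl

/-- Clifford correspondence at the inertia group of `f|_F`, with multiplicities at `P`. -/
theorem inertia_data {P F : Subgroup G} [hF : F.Normal] (hFP : F ≤ P) (f : P →* ℂˣ)
    (T : Subgroup G) (hT : T = stab F (linFun (f.comp (inclusion hFP)))) (hPT : P ≤ T)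
    (χ : Cfsg.IrrCharacter G) (hχ : mult P χ.1 (linFun f) ≠ 0) :
    ∃ ω : Cfsg.IrrCharacter T,
      Cfsg.charDegree (χ : G → ℂ) = T.index * Cfsg.charDegree (ω : T → ℂ) ∧
      (∀ f' : P →* ℂˣ, f'.comp (inclusion hFP) = f.comp (inclusion hFP) →
        mult (P.subgroupOf T) ω.1 (linFun (toSub hPT f')) = mult P χ.1 (linFun f')) ∧
      (∀ g, χ.1 g = @Cfsg.indFun G _ (Fintype.ofFinite G) T ω.1 g) ∧
      ((∀ x : F, ((f (inclusion hFP x) : ℂˣ) : ℂ).im = 0) → (∀ g, (χ.1 g).im = 0) →
        ∀ t, (ω.1 t).im = 0) := by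
  classical
  letI := Fintype.ofFinite G
  haveI := Fintype.ofFinite T
  haveI := Fintype.ofFinite F
  haveI := Fintype.ofFinite (F.subgroupOf T)
  haveI := Fintype.ofFinite P
  haveI := Fintype.ofFinite (P.subgroupOf T)
  set φ : Cfsg.IrrCharacter F := linIrr (f.comp (inclusion hFP)) with hφ
  have hTs : ∀ g : G, g ∈ T ↔ H56.twist F φ.1 g = φ.1 := fun g => by rw [hT]; rfl
  have hFT : F ≤ T := hFP.trans hPT
  have hres := H56.isIrrCharacter_resT F T φ.2 hFT
  -- constituents of `χ_T`
  have hχT : Cfsg.IsCharacter T fun t : T => χ.1 t :=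
    H26.isCharacter_comp (H26.isCharacter_of_irr χ.2) T.subtype
  obtain ⟨c, hc, hsum⟩ := H26.exists_nat_coeffs hχT
  have hφmult : mult F χ.1 φ.1 ≠ 0 :=
    mult_restrict_lin_ne_zero hFP (H26.isCharacter_of_irr χ.2) hχ
  have hover : ∃ ω : Cfsg.IrrCharacter T, c ω ≠ 0 ∧
      Cfsg.classInner (fun n : F.subgroupOf T => ω.1 n) (H56.resT F T φ.1) ≠ 0 := by
    by_contra hno
    push Not at hno
    apply hφmult
    rw [mult_eq]
    have e1 : Cfsg.classInner (fun h : F => χ.1 h) φ.1 =
        Cfsg.classInner (fun n : F.subgroupOf T => χ.1 ((n : T) : G)) (H56.resT F T φ.1) := by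
      simp only [Cfsg.classInner, H56.resT]
      rw [Nat.card_congr (subgroupOfEquivOfLe hFT).toEquiv]
      congr 1
      exact (Fintype.sum_equiv (subgroupOfEquivOfLe hFT).toEquiv _ _ fun x => rfl).symm
    rw [e1, show (fun n : F.subgroupOf T => χ.1 ((n : T) : G)) =
      ∑ ω, (c ω : ℂ) • (fun n : F.subgroupOf T => ω.1 n) by
        funext n
        have := congrFun hsum (n : T)
        simpa using this]
    simp only [Cfsg.classInner, Finset.sum_apply, Pi.smul_apply, smul_eq_mul, Finset.sum_mul]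
    rw [Finset.sum_comm, Finset.mul_sum]
    refine Finset.sum_eq_zero fun ω _ => ?_
    by_cases hω : c ω = 0
    · simp [hω]
    · have h := hno ω hω
      simp only [Cfsg.classInner] at h
      rw [← mul_zero (c ω : ℂ), ← h]
      simp only [Finset.mul_sum]
      exact Finset.sum_congr rfl fun x _ => by ring
  have hrec : ∀ ω : Cfsg.IrrCharacter T,
      Cfsg.classInner χ.1 (Cfsg.indFun T ω.1) = c ω := fun ω => by
    rw [H25.classInner_indFun_right T ω.1 χ.1
      (H26.isClassFunction_of_isCharacter (H26.isCharacter_of_irr χ.2))]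
    exact hc ω
  have hind : ∀ ω : Cfsg.IrrCharacter T, c ω ≠ 0 →
      Cfsg.classInner (fun n : F.subgroupOf T => ω.1 n) (H56.resT F T φ.1) ≠ 0 →
      Cfsg.indFun T ω.1 = χ.1 ∧ c ω = 1 := by
    intro ω hω hov
    obtain ⟨hirr, -⟩ := H56.clifford_induced F T φ.2 hTs ω.2 hov
    have h1 : (⟨_, hirr⟩ : Cfsg.IrrCharacter G) = χ := by
      by_contra hne
      have h := hrec ω
      rw [show Cfsg.indFun T ω.1 = (⟨_, hirr⟩ : Cfsg.IrrCharacter G).1 from rfl, H26.classInner_irr,
        if_neg (Ne.symm hne)] at h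
      exact hω (Nat.cast_eq_zero.mp h.symm)
    have e : Cfsg.indFun T ω.1 = χ.1 := congrArg Subtype.val h1
    refine ⟨e, ?_⟩
    have h := hrec ω
    rw [e, H26.classInner_irr, if_pos rfl] at h
    exact_mod_cast h.symm
  obtain ⟨ω, hω0, hωov⟩ := hover
  obtain ⟨hωind, hω1⟩ := hind ω hω0 hωov
  have huniq : ∀ ω' : Cfsg.IrrCharacter T, c ω' ≠ 0 →
      Cfsg.classInner (fun n : F.subgroupOf T => ω'.1 n) (H56.resT F T φ.1) ≠ 0 → ω' = ω := by
    intro ω' h1 h2
    exact (Subtype.ext ((H56.clifford_induced F T φ.2 hTs ω.2 hωov).2 ω'.1 ω'.2 h2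
      (hωind.trans (hind ω' h1 h2).1.symm))).symm
  refine ⟨ω, ?_, ?_, fun g => ?_, ?_⟩
  · have h := congrFun hωind 1
    rw [H25.indFun_one, ← H44.cast_charDegree, ← H44.cast_charDegree] at h
    exact_mod_cast h.symm
  · intro f' hf'
    rw [← mult_toSub hPT χ.1 f', mult_eq, mult_eq]
    have e : (fun x : P.subgroupOf T => χ.1 ((x : T) : G)) =
        ∑ ω', (c ω' : ℂ) • (fun x : P.subgroupOf T => ω'.1 x) := by
      funext n
      have := congrFun hsum (n : T)
      simpa using this
    rw [e]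
    simp only [Cfsg.classInner, Finset.sum_apply, Pi.smul_apply, smul_eq_mul, Finset.sum_mul]
    rw [Finset.sum_comm, Finset.mul_sum (s := (Finset.univ : Finset (Cfsg.IrrCharacter T))),
      Finset.sum_eq_single ω]
    · rw [hω1, Nat.cast_one]; simp
    · intro ω' _ hne
      by_cases h0 : c ω' = 0
      · simp [h0]
      · have hz : mult (P.subgroupOf T) ω'.1 (linFun (toSub hPT f')) = 0 := by
          by_contra hnz
          refine hne (huniq ω' h0 ?_)
          have hle : F.subgroupOf T ≤ P.subgroupOf T := fun x hx => hFP hx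
          have h := mult_restrict_lin_ne_zero hle (H26.isCharacter_of_irr ω'.2) hnz
          rw [mult_eq] at h
          convert h using 2
          funext x
          show ((f.comp (inclusion hFP)) _ : ℂ) = _
          rw [← hf']
          rfl
        rw [mult_eq] at hz
        simp only [Cfsg.classInner] at hz
        rw [← mul_zero (c ω' : ℂ), ← hz]
        simp only [Finset.mul_sum]
        exact Finset.sum_congr rfl fun x _ => by ring
    · exact fun h => absurd (Finset.mem_univ ω) h
  · exact (congrFun hωind g).symm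
  · intro hφr hχr t
    have hconj : (fun n : F.subgroupOf T => (H26.conjIrr ω).1 n) =
        fun n : F.subgroupOf T => conj (ω.1 n) := rfl
    have hr : (fun x => conj (H56.resT F T φ.1 x)) = H56.resT F T φ.1 :=
      funext fun x => Complex.conj_eq_iff_im.mpr (hφr _)
    have hov' : Cfsg.classInner (fun n : F.subgroupOf T => (H26.conjIrr ω).1 n)
        (H56.resT F T φ.1) ≠ 0 := by
      rw [hconj, ← hr, ← classInner_conj_left]
      exact (map_ne_zero _).mpr hωov
    have hc0 : c (H26.conjIrr ω) ≠ 0 := by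
      intro h0
      apply hω0
      have e1 : (fun x : T => conj (χ.1 x)) = fun x : T => χ.1 x :=
        funext fun x => Complex.conj_eq_iff_im.mpr (hχr _)
      have h2 : conj (Cfsg.classInner (fun x : T => χ.1 x) ω.1) = 0 := by
        rw [classInner_conj_left, e1]
        show Cfsg.classInner _ (H26.conjIrr ω).1 = 0
        rw [hc, h0, Nat.cast_zero]
      rw [hc, Complex.conj_natCast, Nat.cast_eq_zero] at h2
      exact h2
    exact (H26.conjIrr_eq_self_iff ω).mp (huniq _ hc0 hov') t

end Cfsg.Agent.H38.RealOdd
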