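import Mathlib
import Cfsg.Agent.H38.RealOdd.Inertia
import Cfsg.Agent.H19.Fitting

/-! Induction from the inertia group, kernels, and the steps shared by the inductions. -/

set_option autoImplicit false

namespace Cfsg.Agent.H38.RealOdd

open scoped ComplexConjugate
open Subgroup

variable {G : Type*} [Group G] [Finite G]

/-- An irreducible character of the inertia group over `f` induces to one over `f`. -/
theorem exists_induced {P F : Subgroup G} [hF : F.Normal] (hFP : F ≤ P) (f : P →* ℂˣ)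
    (T : Subgroup G) (hT : T = stab F (linFun (f.comp (inclusion hFP)))) (hPT : P ≤ T)
    (ω : Cfsg.IrrCharacter T) (hω : mult (P.subgroupOf T) ω.1 (linFun (toSub hPT f)) ≠ 0) :
    ∃ χ : Cfsg.IrrCharacter G, Cfsg.charDegree (χ : G → ℂ) = T.index * Cfsg.charDegree (ω : T → ℂ) ∧
      mult P χ.1 (linFun f) ≠ 0 ∧
      ((∀ x : F, ((f (inclusion hFP x) : ℂˣ) : ℂ).im = 0) → (∀ g, (χ.1 g).im = 0) →
        ∀ t, (ω.1 t).im = 0) := by
  classical
  letI := Fintype.ofFinite G
  haveI := Fintype.ofFinite T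
  haveI := Fintype.ofFinite F
  haveI := Fintype.ofFinite (F.subgroupOf T)
  haveI := Fintype.ofFinite (P.subgroupOf T)
  set φ : Cfsg.IrrCharacter F := linIrr (f.comp (inclusion hFP)) with hφ
  have hTs : ∀ g : G, g ∈ T ↔ H56.twist F φ.1 g = φ.1 := fun g => by rw [hT]; rfl
  have hle : F.subgroupOf T ≤ P.subgroupOf T := fun x hx => hFP hx
  have hov : Cfsg.classInner (fun n : F.subgroupOf T => ω.1 n) (H56.resT F T φ.1) ≠ 0 := by
    have h := mult_restrict_lin_ne_zero hle (H26.isCharacter_of_irr ω.2) hω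
    rw [mult_eq] at h
    convert h using 2; funext x; rfl
  obtain ⟨hirr, hinj⟩ := H56.clifford_induced F T φ.2 hTs ω.2 hov
  refine ⟨⟨_, hirr⟩, ?_, ?_, fun hφr hχr t => ?_⟩
  · have h := H25.indFun_one T ω.1
    have h2 : ((Cfsg.charDegree (Cfsg.indFun T ω.1) : ℕ) : ℂ) = Cfsg.indFun T ω.1 1 :=
      H44.cast_charDegree ⟨_, hirr⟩
    rw [h, ← H44.cast_charDegree] at h2
    exact_mod_cast h2
  · rw [← mult_toSub hPT]
    haveI := Fintype.ofFinite P
    rw [mult_eq]
    rw [mult_eq] at hω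
    refine classInner_restrict_ne_zero (P.subgroupOf T).subtype
      (H26.isCharacter_comp (H26.isCharacter_of_irr hirr) T.subtype) ω
      (linIrr (toSub hPT f)) ?_ hω
    show Cfsg.classInner (fun t : T => Cfsg.indFun T ω.1 t) ω.1 ≠ 0
    rw [← H25.classInner_indFun_right T ω.1 _ (H25.isClassFunction_indFun T ω.1)]
    exact (H26.classInner_irr (⟨_, hirr⟩ : Cfsg.IrrCharacter G) ⟨_, hirr⟩).trans (if_pos rfl) ▸
      one_ne_zero
  · have hov' : Cfsg.classInner (fun n : F.subgroupOf T => (H26.conjIrr ω).1 n)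
        (H56.resT F T φ.1) ≠ 0 := by
      rw [show (fun n : F.subgroupOf T => (H26.conjIrr ω).1 n) =
        fun n : F.subgroupOf T => conj (ω.1 n) from rfl,
        ← (funext fun x => Complex.conj_eq_iff_im.mpr (hφr _) :
          (fun x => conj (H56.resT F T φ.1 x)) = H56.resT F T φ.1), ← classInner_conj_left]
      exact (map_ne_zero _).mpr hov
    have he : Cfsg.indFun T ω.1 = Cfsg.indFun T (H26.conjIrr ω).1 := by
      funext g
      have hext : ∀ y : G, Cfsg.extendByZero T (H26.conjIrr ω).1 y =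
          conj (Cfsg.extendByZero T ω.1 y) := fun y => by
        by_cases hy : y ∈ T
        · rw [H25.extendByZero_of_mem _ _ hy, H25.extendByZero_of_mem _ _ hy]; rfl
        · rw [H25.extendByZero_of_notMem _ _ hy, H25.extendByZero_of_notMem _ _ hy, map_zero]
      calc Cfsg.indFun T ω.1 g = conj (Cfsg.indFun T ω.1 g) :=
            (Complex.conj_eq_iff_im.mpr (hχr g)).symm
        _ = Cfsg.indFun T (H26.conjIrr ω).1 g := by
            rw [H25.indFun_apply, H25.indFun_apply, map_mul, map_inv₀, Complex.conj_natCast, map_sum]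
            simp only [hext]
    exact (H26.conjIrr_eq_self_iff ω).mp
      (Subtype.ext (hinj _ (H26.conjIrr ω).2 hov' he).symm) t

/-- The kernel of `f|_F`, as a subgroup of `G`. -/
noncomputable def linKer {P F : Subgroup G} (hFP : F ≤ P) (f : P →* ℂˣ) : Subgroup G :=
  (f.comp (inclusion hFP)).ker.map F.subtype

omit [Finite G] in
theorem apply_eq_one_of_mem_linKer {P F : Subgroup G} (hFP : F ≤ P) (f : P →* ℂˣ) (x : P)
    (hx : (x : G) ∈ linKer hFP f) : f x = 1 := by
  obtain ⟨z, hz, hzx⟩ := hx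
  rw [show x = inclusion hFP z from Subtype.ext hzx.symm]
  exact hz

omit [Finite G] in
theorem linKer_normal {P F : Subgroup G} [hF : F.Normal] (hFP : F ≤ P) (f : P →* ℂˣ)
    (hinv : stab F (linFun (f.comp (inclusion hFP))) = ⊤) : (linKer hFP f).Normal := by
  constructor
  rintro _ ⟨z, hz, rfl⟩ g
  refine ⟨⟨g * z * g⁻¹, hF.conj_mem z z.2 g⟩, ?_, rfl⟩
  have h : g ∈ stab F (linFun (f.comp (inclusion hFP))) := hinv ▸ mem_top g
  have h2 : linFun (f.comp (inclusion hFP)) ⟨g * z * g⁻¹, hF.conj_mem z z.2 g⟩ =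
      linFun (f.comp (inclusion hFP)) z := congrFun h z
  exact MonoidHom.mem_ker.mpr (Units.ext (h2.trans (congrArg Units.val (MonoidHom.mem_ker.mp hz))))

/-- If `f|_F` is invariant, its kernel lies in the kernel of every character over it. -/
theorem linKer_le_kerOf {P F : Subgroup G} [F.Normal] (hFP : F ≤ P) (f : P →* ℂˣ)
    (hinv : stab F (linFun (f.comp (inclusion hFP))) = ⊤) (χ : Cfsg.IrrCharacter G)
    (hχ : mult P χ.1 (linFun f) ≠ 0) : linKer hFP f ≤ H44.kerOf χ := by
  letI := Fintype.ofFinite G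
  haveI := Fintype.ofFinite F
  have h := mult_restrict_lin_ne_zero hFP (H26.isCharacter_of_irr χ.2) hχ
  rw [mult_eq] at h
  obtain ⟨e, -, he, -, he1⟩ := H56.restrict_eq_smul_of_invariant F
    (linIrr (f.comp (inclusion hFP))).2 (fun g => (hinv ▸ mem_top g :
      g ∈ stab F (linFun (f.comp (inclusion hFP))))) χ.2 h
  rintro _ ⟨z, hz, rfl⟩
  rw [H44.mem_kerOf, he1]
  have h2 := congrFun he z
  simp only [linIrr, linFun, MonoidHom.mem_ker.mp hz, Pi.smul_apply, Units.val_one, smul_eq_mul,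
    mul_one] at h2
  rw [show (linIrr (f.comp (inclusion hFP))).1 1 = 1 from linFun_one _, mul_one]
  exact h2

/-- The last step of the inductions: `G` is a 2-group. -/
theorem eq_top_of_linKer_eq_bot [Group.IsSolvable G] {P : Subgroup G} (hP : IsPGroup 2 P)
    (hU : Cfsg.pPrimeCore 2 G = ⊥) (hFP : Cfsg.pCore 2 G ≤ P) (f : P →* ℂˣ)
    [(Cfsg.pCore 2 G).Normal]
    (hinv : stab (Cfsg.pCore 2 G) (linFun (f.comp (inclusion hFP))) = ⊤)
    (hZ : linKer hFP f = ⊥) : P = ⊤ := by
  haveI : Fact (Nat.Prime 2) := ⟨Nat.prime_two⟩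
  have hinj : Function.Injective (f.comp (inclusion hFP)) := by
    rw [← MonoidHom.ker_eq_bot_iff]
    exact map_injective (Cfsg.pCore 2 G).subtype_injective (by rw [Subgroup.map_bot]; exact hZ)
  have hc : centralizer (Cfsg.pCore 2 G : Set G) = ⊤ := by
    refine eq_top_iff.mpr fun g _ => mem_centralizer_iff.mpr fun z hz => ?_
    have h : g ∈ stab (Cfsg.pCore 2 G) (linFun (f.comp (inclusion hFP))) := hinv ▸ mem_top g
    have h2 := hinj (Units.ext (congrFun h ⟨z, hz⟩))
    have h3 : g * z * g⁻¹ = z := congrArg Subtype.val h2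
    conv_lhs => rw [← h3]
    rw [inv_mul_cancel_right]
  exact top_le_iff.mp (hc.ge.trans ((H19.centralizer_pCore_le hU).trans hFP))

/-- For a 2-group every constituent over `f` is `f` itself. -/
theorem eq_of_top {P : Subgroup G} (hP : P = ⊤) (χ : Cfsg.IrrCharacter G) (f : P →* ℂˣ)
    (h : mult P χ.1 (linFun f) ≠ 0) : ∀ x : P, χ.1 (x : G) = (f x : ℂ) := by
  classical
  subst hP
  haveI := Fintype.ofFinite (⊤ : Subgroup G)
  rw [mult_eq] at h
  have hirr : Cfsg.IsIrrCharacter (⊤ : Subgroup G) (fun x => χ.1 (x : G)) :=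
    H56.isIrrCharacter_comp_equiv χ.2 Subgroup.topEquiv
  have h' := H26.classInner_irr (⟨_, hirr⟩ : Cfsg.IrrCharacter _) (linIrr f)
  by_cases he : (⟨_, hirr⟩ : Cfsg.IrrCharacter _) = linIrr f
  · exact fun x => congrFun (congrArg Subtype.val he) x
  · rw [if_neg he] at h'
    exact absurd h' h

theorem pCore_le {P : Subgroup G} (hP : IsPGroup 2 P) (hidx : ¬ 2 ∣ P.index) :
    Cfsg.pCore 2 G ≤ P := by
  haveI : Fact (Nat.Prime 2) := ⟨Nat.prime_two⟩
  exact H19.pCore_le_sylow (hP.toSylow hidx)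

theorem card_quotient_lt {U : Subgroup G} [U.Normal] (hU : U ≠ ⊥) : Nat.card (G ⧸ U) < Nat.card G := by
  rw [← H19.card_quotient_mul_card U]
  exact lt_mul_of_one_lt_right Nat.card_pos (U.one_lt_card_iff_ne_bot.mpr hU)

theorem card_lt_of_ne_top {T : Subgroup G} (hT : T ≠ ⊤) : Nat.card T < Nat.card G :=
  lt_of_le_of_ne (Nat.le_of_dvd Nat.card_pos (card_subgroup_dvd_card T))
    fun h => hT (eq_top_of_card_eq T h)

theorem index_subgroupOf_not_dvd {p : ℕ} {P T : Subgroup G} (hPT : P ≤ T) (hidx : ¬ p ∣ P.index) :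
    ¬ p ∣ (P.subgroupOf T).index := fun h => hidx (h.trans ⟨T.index, (relIndex_mul_index hPT).symm⟩)

theorem odd_of_dvd_index {P T : Subgroup G} (hPT : P ≤ T) (hidx : ¬ 2 ∣ P.index) : Odd T.index := by
  rw [← Nat.not_even_iff_odd, even_iff_two_dvd]
  exact fun h => hidx (h.trans (Subgroup.index_dvd_of_le hPT))

end Cfsg.Agent.H38.RealOdd
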