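import Mathlib
import Cfsg.Agent.H38.RealOdd.Converse
import Cfsg.Agent.H19.MinimalNormal
import Cfsg.Agent.H20.FixedPoints

/-! Real odd-degree characters of solvable groups and real linear characters of a Sylow
2-subgroup. -/

set_option autoImplicit false

namespace Cfsg.Agent.H38.RealOdd

open scoped ComplexConjugate commutatorElement
open Subgroup

/-- A real irreducible character of odd degree. -/
def IsRealOdd {G : Type*} [Group G] (χ : Cfsg.IrrCharacter G) : Prop :=
  (∀ g, (χ.1 g).im = 0) ∧ Odd (Cfsg.charDegree (χ : G → ℂ))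

theorem odd_card_pPrimeCore {G : Type*} [Group G] [Finite G] :
    Odd (Nat.card (Cfsg.pPrimeCore 2 G)) :=
  Nat.coprime_two_right.mp (H19.pPrimeCore_coprime 2)

theorem inflate_realOdd {G : Type*} [Group G] [Finite G] {U : Subgroup G} [U.Normal]
    (ψ : Cfsg.IrrCharacter (G ⧸ U)) :
    IsRealOdd (H44.inflate U ψ) ↔ IsRealOdd ψ := by
  have hd : Cfsg.charDegree (H44.inflate U ψ : G → ℂ) = Cfsg.charDegree (ψ : G ⧸ U → ℂ) := by
    have h : ((Cfsg.charDegree (H44.inflate U ψ : G → ℂ) : ℕ) : ℂ) =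
        (Cfsg.charDegree (ψ : G ⧸ U → ℂ) : ℕ) := by
      rw [H44.cast_charDegree, H44.cast_charDegree, H44.inflate_apply]; rfl
    exact_mod_cast h
  refine ⟨fun h => ⟨fun q => ?_, hd ▸ h.2⟩, fun h => ⟨fun g => h.1 _, hd.symm ▸ h.2⟩⟩
  obtain ⟨g, rfl⟩ := QuotientGroup.mk'_surjective U q
  exact h.1 g

theorem oddAt_inflate {G : Type*} [Group G] [Finite G] {P : Subgroup G} {U : Subgroup G} [U.Normal]
    (ψ : Cfsg.IrrCharacter (G ⧸ U)) (f : P →* ℂˣ) (g : P.map (QuotientGroup.mk' U) →* ℂˣ)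
    (hg : ∀ x : P, g ((QuotientGroup.mk' U).subgroupMap P x) = f x) :
    OddAt P (H44.inflate U ψ).1 f ↔ OddAt (P.map (QuotientGroup.mk' U)) ψ.1 g := by
  unfold OddAt
  rw [mult_inflate U ψ f g hg]

theorem isRealHom_descend {G : Type*} [Group G] {P U : Subgroup G} [U.Normal] {f : P →* ℂˣ}
    {g : P.map (QuotientGroup.mk' U) →* ℂˣ}
    (hg : ∀ x : P, g ((QuotientGroup.mk' U).subgroupMap P x) = f x) :
    IsRealHom g ↔ IsRealHom f := by
  refine ⟨fun h x => by rw [← hg]; exact h _, fun h y => ?_⟩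
  obtain ⟨x, rfl⟩ := (QuotientGroup.mk' U).subgroupMap_surjective P y
  rw [hg]; exact h x

/-- A homomorphism of the Sylow 2-subgroup kills nothing in the odd core. -/
theorem apply_eq_one_of_mem_odd {G : Type*} [Group G] [Finite G] {P U : Subgroup G}
    (hP : IsPGroup 2 P) (hU : Odd (Nat.card U)) (f : P →* ℂˣ) (x : P) (hx : (x : G) ∈ U) :
    f x = 1 := by
  haveI : Fact (Nat.Prime 2) := ⟨Nat.prime_two⟩
  have h : (x : G) ∈ P ⊓ U := ⟨x.2, hx⟩
  rw [H19.inf_eq_bot_of_isPGroup_coprime hP (Nat.coprime_two_right.mpr hU), mem_bot] at h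
  rw [show x = 1 from Subtype.ext h, map_one]

/-- Clifford: after conjugating by the normaliser, two linear characters of `P` occurring in the
same character agree on the normal 2-subgroup. -/
theorem exists_rel_agree {G : Type*} [Group G] [Finite G] {P F : Subgroup G} [hF : F.Normal]
    (hP : IsPGroup 2 P) (hidx : ¬ 2 ∣ P.index) (hFP : F ≤ P) (χ : Cfsg.IrrCharacter G)
    {f f' : P →* ℂˣ} (h : mult P χ.1 (linFun f) ≠ 0) (h' : mult P χ.1 (linFun f') ≠ 0) :
    ∃ f'' : P →* ℂˣ, Rel P f f'' ∧ f''.comp (inclusion hFP) = f'.comp (inclusion hFP) := by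
  haveI : Fact (Nat.Prime 2) := ⟨Nat.prime_two⟩
  letI := Fintype.ofFinite G
  haveI := Fintype.ofFinite F
  set φ := linFun (f.comp (inclusion hFP)) with hφ
  set φ' := linFun (f'.comp (inclusion hFP)) with hφ'
  have h1 := mult_restrict_lin_ne_zero hFP (H26.isCharacter_of_irr χ.2) h
  have h2 := mult_restrict_lin_ne_zero hFP (H26.isCharacter_of_irr χ.2) h'
  rw [mult_eq] at h1 h2
  obtain ⟨g, hg⟩ := H27.exists_twist_of_constituents (N := F) χ.2
    (linIrr (f.comp (inclusion hFP))).2 (linIrr (f'.comp (inclusion hFP))).2 h1 h2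
  change H56.twist F φ g = φ' at hg
  set T := stab F φ with hT
  have hPT : P ≤ T := le_stab hFP f
  have hPT' : ∀ x ∈ P, g * x * g⁻¹ ∈ T := by
    intro x hx
    show H56.twist F φ (g * x * g⁻¹) = φ
    have hx' : H56.twist F φ' x = φ' := le_stab hFP f' hx
    rw [← H56.twist_twist, ← H56.twist_twist, hg, hx', ← hg, H56.twist_twist, mul_inv_cancel,
      H56.twist_one]
  set Q := P.map (MulAut.conj g).toMonoidHom with hQ
  have hQT : Q ≤ T := by rintro _ ⟨x, hx, rfl⟩; exact hPT' x hx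
  have hQidx : ¬ 2 ∣ Q.index := by
    have hQc : Nat.card Q = Nat.card P := card_map_of_injective (MulAut.conj g).injective
    have := Q.card_mul_index
    rw [← P.card_mul_index, hQc] at this
    rw [Nat.eq_of_mul_eq_mul_left Nat.card_pos this]
    exact hidx
  let SP : Sylow 2 T := (hP.toSylow hidx).subtype hPT
  let SQ : Sylow 2 T := ((hP.map (MulAut.conj g).toMonoidHom).toSylow hQidx).subtype hQT
  obtain ⟨t, ht⟩ := MulAction.exists_smul_eq T SQ SP
  have hn : (t : G) * g ∈ normalizer (P : Set G) := mem_normalizer_of_conj_map_le fun y hy => by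
    have h1 : (⟨_, hPT' y hy⟩ : T) ∈ (SQ : Subgroup T) := ⟨y, hy, rfl⟩
    have h2 : t * (⟨_, hPT' y hy⟩ : T) * t⁻¹ ∈ ((t • SQ : Sylow 2 T) : Subgroup T) := by
      rw [Sylow.coe_subgroup_smul]; exact ⟨_, h1, rfl⟩
    rw [ht] at h2
    have h3 : (t : G) * (g * y * g⁻¹) * (t : G)⁻¹ ∈ P := h2
    simpa [mul_assoc] using h3
  refine ⟨f.comp (conjAut hn).toMonoidHom, rel_iff.mpr ⟨_, hn, rfl⟩, MonoidHom.ext fun z => Units.ext ?_⟩
  have h3 : H56.twist F φ ((t : G) * g) = φ' := by
    rw [← H56.twist_twist, show H56.twist F φ t = φ from t.2, hg]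
  exact congrFun h3 z

/-- The characters at a given linear character are unique, and the linear characters of a given
character are conjugate. -/
theorem unique_and_conj.{u} : ∀ (G : Type u) [Group G] [Finite G] [Group.IsSolvable G]
    (P : Subgroup G), IsPGroup 2 P → ¬ 2 ∣ P.index →
    ∀ (χ χ' : Cfsg.IrrCharacter G) (f f' : P →* ℂˣ), IsRealOdd χ → IsRealOdd χ' →
      IsRealHom f → IsRealHom f' → OddAt P χ.1 f → OddAt P χ'.1 f' →
      (f = f' → χ = χ') ∧ (χ = χ' → Rel P f f') := by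
  intro G hG₁ hG₂
  induction hn : Nat.card G using Nat.strong_induction_on generalizing G with
  | _ n ih =>
  subst hn
  intro _ P hP hidx
  haveI : Fact (Nat.Prime 2) := ⟨Nat.prime_two⟩
  -- the step through a quotient
  have quot : ∀ (U : Subgroup G) [U.Normal], U ≠ ⊥ →
      ∀ (χ χ' : Cfsg.IrrCharacter G) (f f' : P →* ℂˣ), IsRealOdd χ → IsRealOdd χ' →
      IsRealHom f → IsRealHom f' → OddAt P χ.1 f → OddAt P χ'.1 f' →
      U ≤ H44.kerOf χ → U ≤ H44.kerOf χ' →
      (∀ x : P, (x : G) ∈ U → f x = 1) → (∀ x : P, (x : G) ∈ U → f' x = 1) →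
      (f = f' → χ = χ') ∧ (χ = χ' → Rel P f f') := by
    intro U _ hU χ χ' f f' hχ hχ' hf hf' ho ho' hk hk' hfU hfU'
    obtain ⟨ψ, rfl⟩ := H44.exists_eq_inflate U χ hk
    obtain ⟨ψ', rfl⟩ := H44.exists_eq_inflate U χ' hk'
    obtain ⟨g, hg⟩ := exists_descend U f hfU
    obtain ⟨g', hg'⟩ := exists_descend U f' hfU'
    have h := ih _ (card_quotient_lt hU) (G ⧸ U) rfl (P.map (QuotientGroup.mk' U)) (hP.map _)
      (index_map_not_dvd hidx U) ψ ψ' g g' ((inflate_realOdd ψ).mp hχ) ((inflate_realOdd ψ').mp hχ')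
      ((isRealHom_descend hg).mpr hf) ((isRealHom_descend hg').mpr hf')
      ((oddAt_inflate ψ f g hg).mp ho) ((oddAt_inflate ψ' f' g' hg').mp ho')
    refine ⟨fun e => ?_, fun e => Rel.of_map hP hidx U hg hg' (h.2 (H44.inflate_injective U e))⟩
    congr 1
    refine h.1 (MonoidHom.ext fun y => ?_)
    obtain ⟨x, rfl⟩ := (QuotientGroup.mk' U).subgroupMap_surjective P y
    rw [hg, hg', e]
  by_cases hU : Cfsg.pPrimeCore 2 G = ⊥
  swap
  · haveI := H19.pPrimeCore_normal 2 G
    intro χ χ' f f' hχ hχ' hf hf' ho ho'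
    exact quot _ hU χ χ' f f' hχ hχ' hf hf' ho ho'
      (le_kerOf_of_odd χ hχ.1 hχ.2 _ odd_card_pPrimeCore)
      (le_kerOf_of_odd χ' hχ'.1 hχ'.2 _ odd_card_pPrimeCore)
      (fun x hx => apply_eq_one_of_mem_odd hP odd_card_pPrimeCore f x hx)
      (fun x hx => apply_eq_one_of_mem_odd hP odd_card_pPrimeCore f' x hx)
  haveI := H19.pCore_normal 2 G
  have hFP := pCore_le hP hidx
  -- the case of equal restrictions to `O₂(G)`
  have core : ∀ (χ χ' : Cfsg.IrrCharacter G) (f f' : P →* ℂˣ), IsRealOdd χ → IsRealOdd χ' →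
      IsRealHom f → IsRealHom f' → OddAt P χ.1 f → OddAt P χ'.1 f' →
      f'.comp (inclusion hFP) = f.comp (inclusion hFP) →
      (f = f' → χ = χ') ∧ (χ = χ' → Rel P f f') := by
    intro χ χ' f f' hχ hχ' hf hf' ho ho' hres
    set T := stab (Cfsg.pCore 2 G) (linFun (f.comp (inclusion hFP))) with hT
    by_cases hTtop : T = ⊤
    · by_cases hZ : linKer hFP f = ⊥
      · have hPtop := eq_top_of_linKer_eq_bot hP hU hFP f hTtop hZ
        have h1 := eq_of_top hPtop χ f ho.ne_zero
        have h2 := eq_of_top hPtop χ' f' ho'.ne_zero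
        refine ⟨fun e => Subtype.ext (funext fun g => ?_), fun e => ?_⟩
        · rw [h1 ⟨g, hPtop ▸ mem_top g⟩, h2 ⟨g, hPtop ▸ mem_top g⟩, e]
        · subst e
          rw [show f' = f from MonoidHom.ext fun x => Units.ext ((h2 x).symm.trans (h1 x))]
          exact Rel.refl f
      · haveI := linKer_normal hFP f hTtop
        have hTtop' : stab (Cfsg.pCore 2 G) (linFun (f'.comp (inclusion hFP))) = ⊤ := by
          rw [hres]; exact hTtop
        have hker : linKer hFP f' = linKer hFP f := by rw [linKer, linKer, hres]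
        exact quot _ hZ χ χ' f f' hχ hχ' hf hf' ho ho' (linKer_le_kerOf hFP f hTtop χ ho.ne_zero)
          (hker ▸ linKer_le_kerOf hFP f' hTtop' χ' ho'.ne_zero)
          (fun x hx => apply_eq_one_of_mem_linKer hFP f x hx)
          (fun x hx => apply_eq_one_of_mem_linKer hFP f' x (hker ▸ hx))
    · have hPT : P ≤ T := le_stab hFP f
      have hT' : T = stab (Cfsg.pCore 2 G) (linFun (f'.comp (inclusion hFP))) := by rw [hres]
      obtain ⟨ω, hdeg, hmult, hind, hreal⟩ := inertia_data hFP f T hT hPT χ ho.ne_zero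
      obtain ⟨ω', hdeg', hmult', hind', hreal'⟩ := inertia_data hFP f' T hT' hPT χ' ho'.ne_zero
      have hω : IsRealOdd ω := ⟨hreal (fun x => linFun_im_eq_zero hf _) hχ.1,
        (Nat.odd_mul.mp (hdeg ▸ hχ.2)).2⟩
      have hω' : IsRealOdd ω' := ⟨hreal' (fun x => linFun_im_eq_zero hf' _) hχ'.1,
        (Nat.odd_mul.mp (hdeg' ▸ hχ'.2)).2⟩
      have ho1 : OddAt (P.subgroupOf T) ω.1 (toSub hPT f) := by
        unfold OddAt; rw [hmult f rfl]; exact ho
      have ho2 : OddAt (P.subgroupOf T) ω'.1 (toSub hPT f') := by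
        unfold OddAt; rw [hmult' f' rfl]; exact ho'
      have h := ih _ (card_lt_of_ne_top hTtop) T rfl (P.subgroupOf T)
        (hP.comap_of_injective _ T.subtype_injective) (index_subgroupOf_not_dvd hPT hidx)
        ω ω' (toSub hPT f) (toSub hPT f') hω hω' (fun x => hf _) (fun x => hf' _) ho1 ho2
      refine ⟨fun e => ?_, fun e => ?_⟩
      · have := h.1 (by rw [e])
        subst this
        exact Subtype.ext (funext fun g => (hind g).trans (hind' g).symm)
      · subst e
        have ho3 : OddAt (P.subgroupOf T) ω.1 (toSub hPT f') := by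
          unfold OddAt; rw [hmult f' hres]; exact ho'
        have hrel := (ih _ (card_lt_of_ne_top hTtop) T rfl (P.subgroupOf T)
          (hP.comap_of_injective _ T.subtype_injective) (index_subgroupOf_not_dvd hPT hidx)
          ω ω (toSub hPT f) (toSub hPT f') hω hω (fun x => hf _) (fun x => hf' _) ho1 ho3).2 rfl
        obtain ⟨m, hm, hmr⟩ := hrel
        refine ⟨m, mem_normalizer_of_conj_map_le fun y hy => ?_, fun x y hxy => ?_⟩
        · exact (mem_normalizer_iff.mp hm ⟨y, hPT hy⟩).mp hy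
        · exact hmr ⟨⟨x, hPT x.2⟩, x.2⟩ ⟨⟨y, hPT y.2⟩, y.2⟩ (Subtype.ext hxy)
  intro χ χ' f f' hχ hχ' hf hf' ho ho'
  refine ⟨fun e => (core χ χ' f f' hχ hχ' hf hf' ho ho' (by rw [e])).1 e, fun e => ?_⟩
  subst e
  obtain ⟨f'', hrel, hres⟩ := exists_rel_agree hP hidx hFP χ ho.ne_zero ho'.ne_zero
  letI := Fintype.ofFinite G
  have ho'' := ho.of_rel (H26.isClassFunction_of_isCharacter (H26.isCharacter_of_irr χ.2)) hrel
  exact hrel.trans ((core χ χ f'' f' hχ hχ' (hrel.isRealHom hf) hf' ho'' ho' hres.symm).2 rfl)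

/-- With self-normalising Sylow 2-subgroup an odd-degree character over a real linear character is
real. -/
theorem real_of_realHom.{u} : ∀ (G : Type u) [Group G] [Finite G] [Group.IsSolvable G]
    (P : Subgroup G), IsPGroup 2 P → ¬ 2 ∣ P.index → normalizer (P : Set G) = P →
    ∀ (χ : Cfsg.IrrCharacter G) (f : P →* ℂˣ), Odd (Cfsg.charDegree (χ : G → ℂ)) →
      IsRealHom f → mult P χ.1 (linFun f) ≠ 0 → ∀ g, (χ.1 g).im = 0 := by
  intro G hG₁ hG₂
  induction hn : Nat.card G using Nat.strong_induction_on generalizing G with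
  | _ n ih =>
  subst hn
  intro _ P hP hidx hN χ f hodd hf hχ
  haveI : Fact (Nat.Prime 2) := ⟨Nat.prime_two⟩
  letI := Fintype.ofFinite G
  -- the step through a quotient
  have quot : ∀ (U : Subgroup G) [U.Normal], U ≠ ⊥ → U ≤ H44.kerOf χ →
      (∀ x : P, (x : G) ∈ U → f x = 1) → ∀ g, (χ.1 g).im = 0 := by
    intro U _ hU hk hfU
    obtain ⟨ψ, hψ⟩ := H44.exists_eq_inflate U χ hk
    obtain ⟨f₀, hf₀⟩ := exists_descend U f hfU
    have hd : Odd (Cfsg.charDegree (ψ : G ⧸ U → ℂ)) := by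
      have h : ((Cfsg.charDegree (χ : G → ℂ) : ℕ) : ℂ) = (Cfsg.charDegree (ψ : G ⧸ U → ℂ) : ℕ) := by
        rw [H44.cast_charDegree, H44.cast_charDegree, ← hψ, H44.inflate_apply]; rfl
      rwa [← Nat.cast_inj.mp h]
    have h := ih _ (card_quotient_lt hU) (G ⧸ U) rfl (P.map (QuotientGroup.mk' U)) (hP.map _)
      (index_map_not_dvd hidx U) (normalizer_map_eq hP hidx hN U) ψ f₀ hd
      ((isRealHom_descend hf₀).mpr hf) (by rwa [← mult_inflate U ψ f f₀ hf₀, hψ])
    intro g
    rw [← hψ]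
    exact h _
  by_cases hU : Cfsg.pPrimeCore 2 G = ⊥
  swap
  · haveI := H19.pPrimeCore_normal 2 G
    obtain ⟨V, hVn, hV0, hVU, hVmin⟩ := H19.exists_minimalNormal_le _ hU
    haveI := hVn
    have hVo : Odd (Nat.card V) :=
      Odd.of_dvd_nat odd_card_pPrimeCore (card_dvd_of_le hVU)
    obtain ⟨hVc, -⟩ := H19.minimalNormal_elementary V inferInstance hV0 hVmin
    refine quot V hV0 ?_ (fun x hx => apply_eq_one_of_mem_odd hP hVo f x hx)
    -- a constituent of `χ_V` fixed by `P`
    classical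
    haveI := Fintype.ofFinite V
    have hcV : Cfsg.IsCharacter V fun x : V => χ.1 x :=
      H26.isCharacter_comp (H26.isCharacter_of_irr χ.2) V.subtype
    obtain ⟨c, hc, hsum⟩ := H26.exists_nat_coeffs hcV
    let act : MulAction P (Cfsg.IrrCharacter V) :=
      { smul := fun x θ => ⟨H56.twist V θ.1 (x : G)⁻¹, H56.isIrrCharacter_twist V θ.2 _⟩
        one_smul := fun θ => Subtype.ext (by
          show H56.twist V θ.1 ((1 : P) : G)⁻¹ = θ.1
          rw [OneMemClass.coe_one, inv_one, H56.twist_one])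
        mul_smul := fun x y θ => Subtype.ext (by
          show H56.twist V θ.1 ((x * y : P) : G)⁻¹ = H56.twist V (H56.twist V θ.1 (y : G)⁻¹) (x : G)⁻¹
          rw [H56.twist_twist, Subgroup.coe_mul, mul_inv_rev]) }
    have hlin : ∀ θ : Cfsg.IrrCharacter V, θ.1 1 = 1 := fun θ =>
      (H44.irr_one_eq_one_iff θ).mpr (fun x hx => by
        haveI := hVc
        have hcb : _root_.commutator V = ⊥ := by
          rw [commutator_def]
          exact commutator_eq_bot_iff_le_centralizer.mpr fun a _ =>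
            mem_centralizer_iff.mpr fun b _ => mul_comm' b a
        rw [hcb, mem_bot] at hx
        rw [hx]; exact one_mem _)
    have hcinv : ∀ (x : P) (θ : Cfsg.IrrCharacter V), c (x • θ) = c θ := by
      intro x θ
      have h : (c (x • θ) : ℂ) = c θ := by
        rw [← hc, ← hc]
        conv_lhs => rw [show (fun n : V => χ.1 n) = H56.twist V (fun n : V => χ.1 n) (x : G)⁻¹ from
          (H27.twist_restrict V (H26.isClassFunction_of_isCharacter
            (H26.isCharacter_of_irr χ.2)) _).symm]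
        exact H56.classInner_twist V _ _ _
      exact_mod_cast h
    let S := {θ : Cfsg.IrrCharacter V // Odd (c θ)}
    letI : MulAction P S :=
      { smul := fun x θ => ⟨x • θ.1, by rw [hcinv]; exact θ.2⟩
        one_smul := fun θ => Subtype.ext (one_smul _ θ.1)
        mul_smul := fun x y θ => Subtype.ext (mul_smul x y θ.1) }
    have hS : Odd (Nat.card S) := by
      have hdeg : (Cfsg.charDegree (χ : G → ℂ) : ℕ) = ∑ θ, c θ := by
        have h := congrFun hsum 1
        simp only [Finset.sum_apply, Pi.smul_apply, smul_eq_mul, hlin, mul_one, OneMemClass.coe_one] at h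
        rw [← H44.cast_charDegree] at h
        exact_mod_cast h
      rw [Nat.card_eq_fintype_card, Fintype.card_subtype]
      exact (Finset.odd_sum_iff_odd_card_odd c).mp (hdeg ▸ hodd)
    obtain ⟨⟨θ, hθ⟩, hfix⟩ := IsPGroup.nonempty_fixed_point_of_prime_not_dvd_card hP S
      (fun h => Nat.not_even_iff_odd.mpr hS (even_iff_two_dvd.mpr h))
    have hfix' : ∀ x : P, H56.twist V θ.1 (x : G) = θ.1 := fun x => by
      have h := congrArg (fun s : S => s.1.1) (hfix x⁻¹)
      have h1 : H56.twist V θ.1 ((x⁻¹ : P) : G)⁻¹ = θ.1 := h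
      rwa [InvMemClass.coe_inv, inv_inv] at h1
    obtain ⟨φ, hφ⟩ := exists_hom_of_linear (H26.isCharacter_of_irr θ.2) (hlin θ)
    have hVP : P ≤ normalizer (V : Set G) := le_normalizer_of_normal
    have hcop : (Nat.card P).Coprime (Nat.card V) := by
      obtain ⟨k, hk⟩ := IsPGroup.iff_card.mp hP
      rw [hk]; exact (Nat.coprime_two_left.mpr hVo).pow_left k
    have hC : V ⊓ centralizer (P : Set G) = ⊥ := by
      rw [eq_bot_iff]
      intro v hv
      have hvP : v ∈ P := hN ▸ centralizer_le_normalizer _ hv.2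
      rw [← H19.inf_eq_bot_of_isPGroup_coprime hP (Nat.coprime_two_right.mpr hVo)]
      exact ⟨hvP, hv.1⟩
    have hVeq : ⁅V, P⁆ = V := by
      conv_rhs => rw [← H20.commutator_sup_centralizer hVP hcop
        (Or.inl (H20.isSolvable_of_isPGroup hP)), hC, sup_bot_eq]
    have hθ1 : ∀ v : V, φ v = 1 := by
      have hsub : V ≤ φ.ker.map V.subtype := by
        conv_lhs => rw [← hVeq]
        rw [commutator_le]
        intro v hv x hx
        refine ⟨⟨⁅v, x⁆, H20.commutator_le_of_le_normalizer hVP (commutator_mem_commutator hv hx)⟩,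
          ?_, rfl⟩
        have e : (⟨⁅v, x⁆, H20.commutator_le_of_le_normalizer hVP
            (commutator_mem_commutator hv hx)⟩ : V) =
            ⟨v, hv⟩ * ⟨x * v⁻¹ * x⁻¹, hVn.conj_mem _ (inv_mem hv) x⟩ :=
          Subtype.ext (by simp [commutatorElement_def, mul_assoc])
        have h := congrFun (hfix' ⟨x, hx⟩) ⟨v⁻¹, inv_mem hv⟩
        rw [hφ] at h
        have h2 : φ ⟨x * v⁻¹ * x⁻¹, hVn.conj_mem _ (inv_mem hv) x⟩ = φ ⟨v⁻¹, inv_mem hv⟩ := Units.ext h
        rw [SetLike.mem_coe, MonoidHom.mem_ker, e, map_mul, h2, ← map_mul]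
        rw [show (⟨v, hv⟩ : V) * ⟨v⁻¹, inv_mem hv⟩ = 1 from Subtype.ext (mul_inv_cancel v), map_one]
      intro v
      obtain ⟨z, hz, hzv⟩ := hsub v.2
      rw [show v = z from Subtype.ext hzv.symm]; exact hz
    have hθone : θ.1 = fun _ => 1 := by rw [hφ]; funext v; rw [hθ1 v, Units.val_one]
    have hne : Cfsg.classInner (fun x : V => χ.1 x) θ.1 ≠ 0 := by
      rw [hc, Nat.cast_ne_zero]; intro h0; rw [h0] at hθ; simp at hθ
    obtain ⟨e, -, he, -, he1⟩ := H56.restrict_eq_smul_of_invariant V θ.2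
      (fun g => by rw [hθone]; rfl) χ.2 hne
    intro v hv
    rw [H44.mem_kerOf, he1, hlin θ, mul_one]
    have := congrFun he ⟨v, hv⟩
    simpa [hθone] using this
  haveI := H19.pCore_normal 2 G
  have hFP := pCore_le hP hidx
  set T := stab (Cfsg.pCore 2 G) (linFun (f.comp (inclusion hFP))) with hT
  by_cases hTtop : T = ⊤
  · by_cases hZ : linKer hFP f = ⊥
    · have hPtop := eq_top_of_linKer_eq_bot hP hU hFP f hTtop hZ
      intro g
      rw [eq_of_top hPtop χ f hχ ⟨g, hPtop ▸ mem_top g⟩]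
      exact linFun_im_eq_zero hf _
    · haveI := linKer_normal hFP f hTtop
      exact quot _ hZ (linKer_le_kerOf hFP f hTtop χ hχ) (apply_eq_one_of_mem_linKer hFP f)
  · have hPT : P ≤ T := le_stab hFP f
    obtain ⟨ω, hdeg, hmult, hind, -⟩ := inertia_data hFP f T hT hPT χ hχ
    have hNT : normalizer (P.subgroupOf T : Set T) = P.subgroupOf T := by
      refine le_antisymm (fun m hm => ?_) Subgroup.le_normalizer
      have : (m : G) ∈ normalizer (P : Set G) := mem_normalizer_of_conj_map_le fun y hy =>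
        (mem_normalizer_iff.mp hm ⟨y, hPT hy⟩).mp hy
      rw [hN] at this
      exact this
    have hω := ih _ (card_lt_of_ne_top hTtop) T rfl (P.subgroupOf T)
      (hP.comap_of_injective _ T.subtype_injective) (index_subgroupOf_not_dvd hPT hidx) hNT
      ω (toSub hPT f) (Nat.odd_mul.mp (hdeg ▸ hodd)).2 (fun x => hf _) (by rwa [hmult f rfl])
    intro g
    rw [hind g, H25.indFun_apply, ← Complex.ofReal_natCast, ← Complex.ofReal_inv,
      Complex.im_ofReal_mul, Complex.im_sum]
    rw [Finset.sum_eq_zero, mul_zero]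
    intro x _
    by_cases hx : x⁻¹ * g * x ∈ T
    · rw [H25.extendByZero_of_mem _ _ hx]; exact hω _
    · rw [H25.extendByZero_of_notMem _ _ hx]; rfl

end Cfsg.Agent.H38.RealOdd
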