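import Mathlib
import Cfsg.Agent.H38.RealOdd.Main
import Cfsg.Agent.H24.PGroupBasic

/-! Consequences of all odd-degree characters being real, and the count of real odd-degree
characters. -/

set_option autoImplicit false

namespace Cfsg.Agent.H38.RealOdd

open scoped ComplexConjugate commutatorElement
open Subgroup

/-- All odd-degree irreducible characters are real. -/
def AllOddReal (G : Type*) [Group G] : Prop :=
  ∀ χ : Cfsg.IrrCharacter G, Odd (Cfsg.charDegree (χ : G → ℂ)) → ∀ g, (χ.1 g).im = 0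

theorem AllOddReal.quotient {G : Type*} [Group G] [Finite G] (h : AllOddReal G) (U : Subgroup G)
    [U.Normal] : AllOddReal (G ⧸ U) := by
  intro ψ hψ q
  obtain ⟨g, rfl⟩ := QuotientGroup.mk'_surjective U q
  refine h (H44.inflate U ψ) ?_ g
  have e : ((Cfsg.charDegree (H44.inflate U ψ : G → ℂ) : ℕ) : ℂ) =
      (Cfsg.charDegree (ψ : G ⧸ U → ℂ) : ℕ) := by
    rw [H44.cast_charDegree, H44.cast_charDegree, H44.inflate_apply]; rfl
  rwa [Nat.cast_inj.mp e]

/-- An odd-degree character above a linear character of a subgroup of odd index. -/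
theorem exists_above_of_odd_index {G : Type*} [Group G] [Finite G] (H : Subgroup G)
    (hH : Odd H.index) (ν : H →* ℂˣ) :
    (∃ χ : Cfsg.IrrCharacter G, Odd (Cfsg.charDegree (χ : G → ℂ)) ∧
      mult H χ.1 (linFun ν) ≠ 0) ∧
    (IsRealHom ν → ∃ χ : Cfsg.IrrCharacter G, IsRealOdd χ ∧ OddAt H χ.1 ν) := by
  letI := Fintype.ofFinite G
  haveI := Fintype.ofFinite H
  have hchar : Cfsg.IsCharacter G (Cfsg.indFun H (linFun ν)) :=
    H25.isCharacter_indFun H (H26.isCharacter_of_irr (linIrr ν).2)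
  have h1 : Cfsg.indFun H (linFun ν) 1 = (H.index : ℕ) := by
    rw [H25.indFun_one, linFun_one, mul_one]
  have hrec : ∀ (χ : Cfsg.IrrCharacter G) (m : ℕ),
      Cfsg.classInner (Cfsg.indFun H (linFun ν)) χ.1 = m → mult H χ.1 (linFun ν) = m := by
    intro χ m h
    rw [mult_eq, ← H25.classInner_indFun_right H (linFun ν) χ.1
      (H26.isClassFunction_of_isCharacter (H26.isCharacter_of_irr χ.2)), ← H25.conj_classInner, h,
      Complex.conj_natCast]
  obtain ⟨h2, h3⟩ := exists_odd_constituent hchar hH h1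
  refine ⟨?_, fun hν => ?_⟩
  · obtain ⟨χ, hχ, m, hm, hmult⟩ := h2
    refine ⟨χ, hχ, ?_⟩
    rw [hrec χ m hmult, Nat.cast_ne_zero]
    rintro rfl; simp at hm
  · have hreal : ∀ g, (Cfsg.indFun H (linFun ν) g).im = 0 := by
      intro g
      rw [H25.indFun_apply, ← Complex.ofReal_natCast, ← Complex.ofReal_inv, Complex.im_ofReal_mul,
        Complex.im_sum, Finset.sum_eq_zero, mul_zero]
      intro x _
      by_cases hx : x⁻¹ * g * x ∈ H
      · rw [H25.extendByZero_of_mem _ _ hx]; exact linFun_im_eq_zero hν _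
      · rw [H25.extendByZero_of_notMem _ _ hx]; rfl
    obtain ⟨χ, hχ1, hχ2, m, hm, hmult⟩ := h3 hreal
    exact ⟨χ, ⟨hχ1, hχ2⟩, m, hm, hrec χ m hmult⟩

theorem odd_index {G : Type*} [Group G] {P : Subgroup G} (hidx : ¬ 2 ∣ P.index) : Odd P.index := by
  rw [← Nat.not_even_iff_odd, even_iff_two_dvd]; exact hidx

/-- If every odd-degree character is real, the Sylow 2-subgroup is self-normalising. -/
theorem normalizer_eq_of_allOddReal.{u} : ∀ (G : Type u) [Group G] [Finite G] [Group.IsSolvable G]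
    (P : Subgroup G), IsPGroup 2 P → ¬ 2 ∣ P.index → AllOddReal G →
    normalizer (P : Set G) = P := by
  intro G hG₁ hG₂
  induction hn : Nat.card G using Nat.strong_induction_on generalizing G with
  | _ n ih =>
  subst hn
  intro _ P hP hidx hall
  haveI : Fact (Nat.Prime 2) := ⟨Nat.prime_two⟩
  rcases subsingleton_or_nontrivial G with hsub | hnt
  · exact Subsingleton.elim _ _
  obtain ⟨V, r, hVn, hV0, hVc, hr, hVr, -⟩ := H19.exists_normal_elementary (G := G)
  haveI := hVn
  haveI := Fact.mk hr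
  have hquot := ih _ (card_quotient_lt hV0) (G ⧸ V) rfl (P.map (QuotientGroup.mk' V)) (hP.map _)
    (index_map_not_dvd hidx V) (hall.quotient V)
  refine le_antisymm (fun x hx => ?_) Subgroup.le_normalizer
  have hx' : QuotientGroup.mk' V x ∈ P.map (QuotientGroup.mk' V) := by
    rw [← hquot]; exact le_normalizer_map _ (mem_map_of_mem _ hx)
  obtain ⟨y, hy, hyx⟩ := hx'
  have hv : y⁻¹ * x ∈ V := QuotientGroup.eq.mp hyx
  suffices hvP : y⁻¹ * x ∈ P by simpa using mul_mem hy hvP
  by_cases h2 : r = 2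
  · subst h2
    exact (le_trans (H19.le_pCore hVn hVr) (pCore_le hP hidx)) hv
  have hVo : Odd (Nat.card V) := by
    obtain ⟨k, hk⟩ := IsPGroup.iff_card.mp hVr
    rw [hk]; exact (hr.odd_of_ne_two h2).pow
  have hvN : y⁻¹ * x ∈ normalizer (P : Set G) := mul_mem (inv_mem (le_normalizer hy)) hx
  -- fixed points of `P` on `V` are trivial
  set C := V ⊓ centralizer (P : Set G) with hC
  have hvC : y⁻¹ * x ∈ C := by
    refine ⟨hv, mem_centralizer_iff.mpr fun z hz => ?_⟩
    have h1 : ⁅y⁻¹ * x, z⁆ ∈ P := by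
      rw [commutatorElement_def]
      exact mul_mem ((mem_normalizer_iff.mp hvN z).mp hz) (inv_mem hz)
    have h3 : ⁅y⁻¹ * x, z⁆ ∈ V := by
      rw [commutatorElement_def, mul_assoc (y⁻¹ * x), mul_assoc (y⁻¹ * x)]
      exact mul_mem hv (hVn.conj_mem _ (inv_mem hv) z)
    have h4 : ⁅y⁻¹ * x, z⁆ ∈ P ⊓ V := ⟨h1, h3⟩
    rw [H19.inf_eq_bot_of_isPGroup_coprime hP (Nat.coprime_two_right.mpr hVo), mem_bot,
      commutatorElement_eq_one_iff_mul_comm] at h4
    exact h4.symm
  by_contra hne
  have hC1 : y⁻¹ * x ≠ 1 := fun h => hne (h ▸ one_mem P)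
  set H := C ⊔ P with hH
  have hCP : P ≤ normalizer (C : Set G) := H20.le_normalizer_of_le_centralizer
    (le_centralizer_iff.mp inf_le_right)
  have hPH : P ≤ H := le_sup_right
  haveI hPn : (P.subgroupOf H).Normal := by
    refine normal_subgroupOf_of_le_normalizer (sup_le ?_ Subgroup.le_normalizer)
    exact inf_le_right.trans (centralizer_le_normalizer _)
  set π := QuotientGroup.mk' (P.subgroupOf H) with hπ
  have hcomm : ∀ a b : H ⧸ P.subgroupOf H, a * b = b * a := by
    intro a b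
    obtain ⟨a, rfl⟩ := QuotientGroup.mk'_surjective _ a
    obtain ⟨b, rfl⟩ := QuotientGroup.mk'_surjective _ b
    have hdec : ∀ a : H, ∃ c : H, (c : G) ∈ C ∧ π c = π a := by
      intro a
      have ha : a ∈ C.subgroupOf H ⊔ P.subgroupOf H := by
        rw [← subgroupOf_sup le_sup_left hPH, subgroupOf_self]; exact mem_top a
      obtain ⟨c, hc, p, hp, e⟩ := mem_sup_of_normal_right.mp ha
      refine ⟨c, hc, QuotientGroup.eq.mpr ?_⟩
      rw [← e, inv_mul_cancel_left]
      exact hp
    obtain ⟨c, hc, hca⟩ := hdec a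
    obtain ⟨d, hd, hdb⟩ := hdec b
    show π a * π b = π b * π a
    rw [← hca, ← hdb, ← map_mul, ← map_mul]
    congr 1
    haveI := hVc
    exact Subtype.ext (congrArg Subtype.val (mul_comm' (⟨(c : G), hc.1⟩ : V) ⟨(d : G), hd.1⟩) :)
  letI : CommGroup (H ⧸ P.subgroupOf H) := { (inferInstance : Group (H ⧸ P.subgroupOf H)) with
    mul_comm := hcomm }
  set v' : H := ⟨y⁻¹ * x, le_sup_left (b := P) hvC⟩ with hv'
  have hv1 : π v' ≠ 1 := fun h => hne ((QuotientGroup.eq_one_iff v').mp h)
  obtain ⟨μ, hμ⟩ := CommGroup.exists_apply_ne_one_of_hasEnoughRootsOfUnity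
    (H ⧸ P.subgroupOf H) ℂ hv1
  set ν : H →* ℂˣ := μ.comp π with hν
  have hHidx : Odd H.index := odd_of_dvd_index hPH hidx
  obtain ⟨χ, hχodd, hχν⟩ := (exists_above_of_odd_index H hHidx ν).1
  have hker := le_kerOf_of_odd χ (hall χ hχodd) hχodd V hVo
  have hCH : C ≤ H := le_sup_left
  have hne2 := mult_restrict_lin_ne_zero hCH (H26.isCharacter_of_irr χ.2) hχν
  classical
  haveI := Fintype.ofFinite C
  rw [mult_eq] at hne2
  apply hne2
  have e : (fun c : C => χ.1 c) = χ.1 1 • (H26.oneIrr C).1 := by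
    funext c
    rw [Pi.smul_apply, smul_eq_mul]
    show χ.1 c = χ.1 1 * 1
    rw [mul_one]; exact hker c.2.1
  rw [e, show Cfsg.classInner (χ.1 1 • (H26.oneIrr C).1) (linFun (ν.comp (inclusion hCH))) =
      χ.1 1 * Cfsg.classInner (H26.oneIrr C).1 (linIrr (ν.comp (inclusion hCH))).1 by
    simp only [Cfsg.classInner, linIrr, Pi.smul_apply, smul_eq_mul, Finset.mul_sum]
    exact Finset.sum_congr rfl fun c _ => by ring, H26.classInner_irr, if_neg, mul_zero]
  intro h
  apply hμ
  have := congrFun (congrArg Subtype.val h) ⟨y⁻¹ * x, hvC⟩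
  exact Units.ext this.symm

/-- With self-normalising Sylow 2-subgroup, a linear character of `P` all of whose odd-degree
characters above are real is real. -/
theorem realHom_of_above.{u} : ∀ (G : Type u) [Group G] [Finite G] [Group.IsSolvable G]
    (P : Subgroup G), IsPGroup 2 P → ¬ 2 ∣ P.index → normalizer (P : Set G) = P →
    ∀ f : P →* ℂˣ, (∀ χ : Cfsg.IrrCharacter G, Odd (Cfsg.charDegree (χ : G → ℂ)) →
      mult P χ.1 (linFun f) ≠ 0 → ∀ g, (χ.1 g).im = 0) → IsRealHom f := by
  intro G hG₁ hG₂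
  induction hn : Nat.card G using Nat.strong_induction_on generalizing G with
  | _ n ih =>
  subst hn
  intro _ P hP hidx hN f habove
  haveI : Fact (Nat.Prime 2) := ⟨Nat.prime_two⟩
  letI := Fintype.ofFinite G
  have quot : ∀ (U : Subgroup G) [U.Normal], U ≠ ⊥ → (∀ x : P, (x : G) ∈ U → f x = 1) →
      IsRealHom f := by
    intro U _ hU hfU
    obtain ⟨f₀, hf₀⟩ := exists_descend U f hfU
    refine (isRealHom_descend hf₀).mp (ih _ (card_quotient_lt hU) (G ⧸ U) rfl
      (P.map (QuotientGroup.mk' U)) (hP.map _) (index_map_not_dvd hidx U)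
      (normalizer_map_eq hP hidx hN U) f₀ fun ψ hψ hmult q => ?_)
    obtain ⟨g, rfl⟩ := QuotientGroup.mk'_surjective U q
    refine habove (H44.inflate U ψ) ?_ (by rwa [mult_inflate U ψ f f₀ hf₀]) g
    have e : ((Cfsg.charDegree (H44.inflate U ψ : G → ℂ) : ℕ) : ℂ) =
        (Cfsg.charDegree (ψ : G ⧸ U → ℂ) : ℕ) := by
      rw [H44.cast_charDegree, H44.cast_charDegree, H44.inflate_apply]; rfl
    rwa [Nat.cast_inj.mp e]
  by_cases hU : Cfsg.pPrimeCore 2 G = ⊥
  swap
  · haveI := H19.pPrimeCore_normal 2 G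
    exact quot _ hU (fun x hx => apply_eq_one_of_mem_odd hP odd_card_pPrimeCore f x hx)
  haveI := H19.pCore_normal 2 G
  have hFP := pCore_le hP hidx
  set T := stab (Cfsg.pCore 2 G) (linFun (f.comp (inclusion hFP))) with hT
  obtain ⟨χ, hχodd, hχ⟩ := (exists_above_of_odd_index P (odd_index hidx) f).1
  have hχr := habove χ hχodd hχ
  by_cases hTtop : T = ⊤
  · by_cases hZ : linKer hFP f = ⊥
    · have hPtop := eq_top_of_linKer_eq_bot hP hU hFP f hTtop hZ
      exact isRealHom_of_im fun x => (eq_of_top hPtop χ f hχ x).symm ▸ hχr x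
    · haveI := linKer_normal hFP f hTtop
      exact quot _ hZ (apply_eq_one_of_mem_linKer hFP f)
  · have hPT : P ≤ T := le_stab hFP f
    have hNT : normalizer (P.subgroupOf T : Set T) = P.subgroupOf T := by
      refine le_antisymm (fun m hm => ?_) Subgroup.le_normalizer
      have : (m : G) ∈ normalizer (P : Set G) := mem_normalizer_of_conj_map_le fun y hy =>
        (mem_normalizer_iff.mp hm ⟨y, hPT hy⟩).mp hy
      rw [hN] at this
      exact this
    -- `f|_F` is real: its conjugate is `N(P) = P`-conjugate to it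
    have hφr : ∀ z : Cfsg.pCore 2 G, ((f (inclusion hFP z) : ℂˣ) : ℂ).im = 0 := by
      set fc : P →* ℂˣ := (Units.map (starRingEnd ℂ).toMonoidHom).comp f with hfc
      have hfc' : mult P χ.1 (linFun fc) ≠ 0 := by
        haveI := Fintype.ofFinite P
        rw [mult_eq] at hχ ⊢
        intro h0
        apply hχ
        rw [← Complex.conj_conj (Cfsg.classInner _ (linFun f)), classInner_conj_left]
        rw [show (fun x : P => conj (χ.1 x)) = fun x : P => χ.1 x from
          funext fun x => Complex.conj_eq_iff_im.mpr (hχr _)]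
        rw [show (fun x : P => conj (linFun f x)) = linFun fc from rfl, h0, map_zero]
      obtain ⟨f'', hrel, hres⟩ := exists_rel_agree hP hidx hFP χ hχ hfc'
      obtain ⟨n, hn, hrel⟩ := hrel
      rw [hN] at hn
      intro z
      have h1 : f'' (inclusion hFP z) = fc (inclusion hFP z) := DFunLike.congr_fun hres z
      have h2 := hrel (inclusion hFP z) (⟨n, hn⟩ * inclusion hFP z * ⟨n, hn⟩⁻¹) rfl
      rw [map_mul, map_mul, map_inv, mul_comm, inv_mul_cancel_left] at h2
      rw [h2] at h1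
      exact Complex.conj_eq_iff_im.mp (congrArg Units.val h1).symm
    have h := ih _ (card_lt_of_ne_top hTtop) T rfl (P.subgroupOf T)
      (hP.comap_of_injective _ T.subtype_injective) (index_subgroupOf_not_dvd hPT hidx) hNT
      (toSub hPT f) fun ω hω hωm => by
        obtain ⟨χ', hdeg, hχ', hreal⟩ := exists_induced hFP f T hT hPT ω hωm
        have hTo : Odd T.index := odd_of_dvd_index hPT hidx
        exact hreal hφr (habove χ' (by rw [hdeg]; exact hTo.mul hω) hχ')
    intro x
    exact h ⟨⟨x, hPT x.2⟩, x.2⟩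

end Cfsg.Agent.H38.RealOdd
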