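import Mathlib
import Cfsg.Agent.H38.RealOdd.AllReal

/-! The count of real odd-degree characters as orbits of the normaliser on real linear characters
of a Sylow 2-subgroup. -/

set_option autoImplicit false

namespace Cfsg.Agent.H38.RealOdd

open Subgroup

/-- Conjugacy of real linear characters under the normaliser. -/
def relSetoid {G : Type*} [Group G] (P : Subgroup G) : Setoid {f : P →* ℂˣ // IsRealHom f} where
  r a b := Rel P a.1 b.1
  iseqv := ⟨fun a => Rel.refl a.1, fun h => h.symm, fun h h' => h.trans h'⟩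

theorem card_realOdd_eq_orbits {G : Type*} [Group G] [Finite G] [Group.IsSolvable G]
    (P : Subgroup G) (hP : IsPGroup 2 P) (hidx : ¬ 2 ∣ P.index) :
    Nat.card {χ : Cfsg.IrrCharacter G // IsRealOdd χ} = Nat.card (Quotient (relSetoid P)) := by
  haveI : Fact (Nat.Prime 2) := ⟨Nat.prime_two⟩
  letI := Fintype.ofFinite G
  have hex : ∀ f : {f : P →* ℂˣ // IsRealHom f}, ∃ χ : Cfsg.IrrCharacter G,
      IsRealOdd χ ∧ OddAt P χ.1 f.1 := fun f =>
    (exists_above_of_odd_index P (odd_index hidx) f.1).2 f.2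
  choose F hF using hex
  have hU := unique_and_conj G P hP hidx
  have hFrel : ∀ a b : {f : P →* ℂˣ // IsRealHom f}, Rel P a.1 b.1 → F a = F b := fun a b h =>
    (hU (F a) (F b) b.1 b.1 (hF a).1 (hF b).1 b.2 b.2
      ((hF a).2.of_rel (H26.isClassFunction_of_isCharacter (H26.isCharacter_of_irr (F a).2)) h)
      (hF b).2).1 rfl
  symm
  refine Nat.card_congr (Equiv.ofBijective
    (Quotient.lift (fun f => (⟨F f, (hF f).1⟩ : {χ : Cfsg.IrrCharacter G // IsRealOdd χ}))
      fun a b h => Subtype.ext (hFrel a b h)) ⟨?_, ?_⟩)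
  · rintro ⟨a⟩ ⟨b⟩ h
    exact Quotient.sound ((hU (F a) (F b) a.1 b.1 (hF a).1 (hF b).1 a.2 b.2 (hF a).2 (hF b).2).2
      (congrArg Subtype.val h))
  · rintro ⟨χ, hχ⟩
    haveI := Fintype.ofFinite P
    have h1 : χ.1 ((1 : P) : G) = (Cfsg.charDegree (χ : G → ℂ) : ℕ) := by
      rw [H44.cast_charDegree]; rfl
    obtain ⟨ψ, hψr, hψo, m, hm, hψm⟩ := (exists_odd_constituent (θ := fun x : P => χ.1 x)
      (H26.isCharacter_comp (H26.isCharacter_of_irr χ.2) P.subtype) hχ.2 h1).2 fun x => hχ.1 x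
    obtain ⟨f, hf⟩ := exists_hom_of_odd hP ψ hψo
    subst hf
    have hfr : IsRealHom f := isRealHom_of_im hψr
    refine ⟨Quotient.mk _ ⟨f, hfr⟩, Subtype.ext ?_⟩
    exact (hU (F ⟨f, hfr⟩) χ f f (hF _).1 hχ hfr hfr (hF _).2
      ⟨m, hm, by rw [mult_eq]; exact hψm⟩).1 rfl

theorem orbits_normalizer_eq {G : Type*} [Group G] (P : Subgroup G) :
    Nat.card (Quotient (relSetoid (P.subgroupOf (normalizer (P : Set G))))) =
      Nat.card (Quotient (relSetoid P)) := by
  set N := normalizer (P : Set G)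
  set e := subgroupOfEquivOfLe (Subgroup.le_normalizer : P ≤ N)
  let E : {f : P →* ℂˣ // IsRealHom f} ≃ {f : P.subgroupOf N →* ℂˣ // IsRealHom f} :=
    { toFun := fun f => ⟨f.1.comp e.toMonoidHom, fun x => f.2 _⟩
      invFun := fun f => ⟨f.1.comp e.symm.toMonoidHom, fun x => f.2 _⟩
      left_inv := fun f => Subtype.ext (MonoidHom.ext fun x => by simp)
      right_inv := fun f => Subtype.ext (MonoidHom.ext fun x => by simp) }
  refine (Nat.card_congr (Quotient.congr E fun a b => ?_)).symm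
  constructor
  · rintro ⟨n, hn, h⟩
    refine ⟨⟨n, hn⟩, ?_, fun x y hxy => h (e x) (e y) (congrArg Subtype.val hxy)⟩
    exact mem_normalizer_iff.mpr fun x => mem_normalizer_iff.mp hn (x : G)
  · rintro ⟨n, -, h⟩
    refine ⟨n, n.2, fun x y hxy => ?_⟩
    exact h ⟨⟨x, Subgroup.le_normalizer x.2⟩, x.2⟩ ⟨⟨y, Subgroup.le_normalizer y.2⟩, y.2⟩
      (Subtype.ext hxy)

end Cfsg.Agent.H38.RealOdd
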